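import Mathlib
import Cfsg.Agent.Base
import Cfsg.Agent.Lib.Functor.Sect
import Cfsg.Agent.Lib.Core.CoprimeAbelian

/-! The invariant transversal of the normaliser of an extremely closed abelian `p`-subgroup. -/

set_option autoImplicit false

namespace H26.EC

open Cfsg Subgroup H69 H59

variable {G : Type*} [Group G]

structure Ec (p : ℕ) (H : Subgroup G) : Prop where
  hp : IsPGroup p H
  ab : H ≤ 𝐂(H)
  cl : ∀ g : G, (H ⊔ H ^ᶜ g) ⊓ 𝐍(H) ≤ H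

structure Good (H L : Subgroup G) : Prop where
  le : H ≤ L
  inf : L ⊓ 𝐍(H) ≤ H

/-- The transversal. -/
structure Tr (p : ℕ) (H : Subgroup G) (t : G) : Prop where
  cop : (orderOf t).Coprime p
  mem : t ∈ H ⊔ H ^ᶜ t

variable {p : ℕ} {H L : Subgroup G}

theorem cj_eq_cj {a b : G} : H ^ᶜ a = H ^ᶜ b ↔ a⁻¹ * b ∈ 𝐍(H) := by
  rw [← cj_eq_self_iff, ← cj_cj, eq_comm (a := H ^ᶜ a), ← cj_inj (g := a⁻¹), cj_cj_inv]

theorem Tr.res {t : G} (h : Tr p H t) : t ∈ 𝐑(p, H ⊔ H ^ᶜ t) := mem_res h.mem h.cop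

theorem Tr.one : Tr p H 1 := ⟨by simp, one_mem _⟩

theorem Tr.conj {t n : G} (h : Tr p H t) (hn : n ∈ 𝐍(H)) : Tr p H (n * t * n⁻¹) := by
  refine ⟨(MulAut.conj n).orderOf_eq t ▸ h.cop, ?_⟩
  have := cj_mem n h.mem
  rwa [cj_sup, cj_eq_of_mem_normalizer hn, cj_cj,
    (cj_eq_cj (b := n * t * n⁻¹)).2 (by simpa [mul_assoc] using inv_mem hn)] at this

theorem Good.mono {K : Subgroup G} (g : Good H L) (h1 : H ≤ K) (h2 : K ≤ L) : Good H K :=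
  ⟨h1, (inf_le_inf_right _ h2).trans g.inf⟩

namespace Ec

variable (e : Ec p H)
include e

theorem good (g : G) : Good H (H ⊔ H ^ᶜ g) := ⟨le_sup_left, e.cl g⟩

theorem comm {a b : G} (ha : a ∈ H) (hb : b ∈ H) : a * b = b * a :=
  mem_centralizer_iff_commute.1 (e.ab hb) a ha

variable [Finite G] [Fact p.Prime]

theorem syl (g : Good H L) : IsSylowIn p H L :=
  isSylowIn_of_normalizer g.le (by
    rw [le_antisymm g.inf (le_inf g.le le_normalizer)]; exact isSylowIn_self e.hp)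

theorem cop (g : Good H L) : (Nat.card 𝐑(p, L)).Coprime p :=
  coprime_card_res (hasNormalPComplement_of_central (e.syl g) (g.inf.trans e.ab))

theorem cop_mem (g : Good H L) {k : G} (hk : k ∈ 𝐑(p, L)) : (orderOf k).Coprime p :=
  Nat.Coprime.coprime_dvd_left (orderOf_dvd_natCard _ hk) (e.cop g)

theorem copH (g : Good H L) {A : Subgroup G} (hA : A ≤ H) :
    (Nat.card A).Coprime (Nat.card 𝐑(p, L)) := by
  obtain ⟨n, hn⟩ := IsPGroup.iff_card.1 (e.hp.to_le hA)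
  rw [hn]
  exact (e.cop g).symm.pow_left n

omit [Finite G] [Fact p.Prime] in
theorem eq_one_of_cop {k : G} (hk : k ∈ H) (h : (orderOf k).Coprime p) : k = 1 := by
  obtain ⟨n, hn⟩ := e.hp ⟨k, hk⟩
  have h1 : orderOf k ∣ p ^ n := orderOf_dvd_of_pow_eq_one (congrArg Subtype.val hn)
  exact orderOf_eq_one_iff.1 (Nat.Coprime.eq_one_of_dvd (h.pow_right n) h1)

theorem eq_one (g : Good H L) {k : G} (hk : k ∈ 𝐑(p, L)) (hn : k ∈ 𝐍(H)) : k = 1 :=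
  e.eq_one_of_cop (g.inf ⟨res_le L hk, hn⟩) (e.cop_mem g hk)

theorem dec (g : Good H L) {a : G} (ha : a ∈ L) : ∃ k ∈ 𝐑(p, L), ∃ h ∈ H, a = k * h := by
  rw [← (e.syl g).res_sup] at ha
  exact (mem_sup_of_le_normalizer_left (g.le.trans (le_normalizer_res L))).1 ha

theorem ex_res (a : G) : ∃ k ∈ 𝐑(p, H ⊔ H ^ᶜ a), H ^ᶜ k = H ^ᶜ a := by
  have hs := e.syl (e.good a)
  obtain ⟨l, hl, he⟩ := hs.conj (hs.of_card_le (isPGroup_cj e.hp a) le_sup_right (card_cj H a).ge)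
  obtain ⟨k, hk, h, hh, rfl⟩ := e.dec (e.good a) hl
  exact ⟨k, hk, by rw [← he, ← cj_cj, cj_eq_of_mem hh]⟩

theorem tr (g : Good H L) {k : G} (hk : k ∈ 𝐑(p, L)) : Tr p H k := by
  obtain ⟨j, hj, he⟩ := e.ex_res k
  have h1 : H ⊔ H ^ᶜ k ≤ L := sup_le g.le (cj_le_of_mem g.le (res_le L hk))
  have h2 := e.eq_one g (mul_mem (inv_mem (res_mono h1 hj)) hk) (cj_eq_cj.1 he)
  rw [inv_mul_eq_one] at h2
  subst h2
  exact ⟨e.cop_mem g hk, res_le _ hj⟩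

theorem ex_tr (a : G) : ∃ t n : G, Tr p H t ∧ n ∈ 𝐍(H) ∧ a = t * n := by
  obtain ⟨k, hk, he⟩ := e.ex_res a
  exact ⟨k, k⁻¹ * a, e.tr (e.good a) hk, cj_eq_cj.1 he, by simp⟩

theorem uniq {s t : G} (hs : Tr p H s) (ht : Tr p H t) (h : s⁻¹ * t ∈ 𝐍(H)) : s = t := by
  have h1 := ht.res
  rw [← cj_eq_cj.2 h] at h1
  exact inv_mul_eq_one.1 (e.eq_one (e.good s) (mul_mem (inv_mem hs.res) h1) h)

theorem inv {t : G} (ht : Tr p H t) : Tr p H t⁻¹ := e.tr (e.good t) (inv_mem ht.res)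

theorem mul (g : Good H L) {s t : G} (hs : Tr p H s) (ht : Tr p H t) (h1 : s ∈ L) (h2 : t ∈ L) :
    Tr p H (s * t) := e.tr g (mul_mem (mem_res h1 hs.cop) (mem_res h2 ht.cop))

omit [Finite G] [Fact p.Prime] in
theorem res_comm (g : Good H L) {k h : G} (hk : k ∈ 𝐑(p, L)) (hh : h ∈ H) :
    k * h * k⁻¹ * h⁻¹ ∈ 𝐑(p, L) := by
  have := mul_mem hk (conj_mem_of_mem_normalizer (le_normalizer_res L (g.le hh)) (inv_mem hk))
  simpa only [mul_assoc] using this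

theorem tr_comm {t h : G} (ht : Tr p H t) (hh : h ∈ H) : Tr p H (t * h * t⁻¹ * h⁻¹) :=
  e.tr (e.good t) (e.res_comm (e.good t) ht.res hh)

/-- A generator `y` of `H` is conjugate to `t * y`. -/
theorem isConj {t y : G} (ht : Tr p H t) (hy : zpowers y = H) : IsConj y (t * y) := by
  have hyH : y ∈ H := hy ▸ mem_zpowers y
  let f : 𝐑(p, H ⊔ H ^ᶜ t) → 𝐑(p, H ⊔ H ^ᶜ t) :=
    fun k => ⟨k * y * k⁻¹ * y⁻¹, e.res_comm (e.good t) k.2 hyH⟩
  have hf : Function.Injective f := fun a b hab => by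
    have h1 : (a : G) * y * (a : G)⁻¹ = b * y * (b : G)⁻¹ :=
      mul_right_cancel (congrArg Subtype.val hab)
    have h2 : H ^ᶜ (a : G) = H ^ᶜ (b : G) := by
      have := congrArg zpowers h1
      rwa [← cj_zpowers, ← cj_zpowers, hy] at this
    exact Subtype.ext (inv_mul_eq_one.1
      (e.eq_one (e.good t) (mul_mem (inv_mem a.2) b.2) (cj_eq_cj.1 h2)))
  obtain ⟨k, hk⟩ := Finite.surjective_of_injective hf ⟨t, ht.res⟩
  have h1 : (k : G) * y * (k : G)⁻¹ * y⁻¹ = t := congrArg Subtype.val hk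
  exact isConj_iff.2 ⟨k, eq_mul_of_mul_inv_eq h1⟩

/-- Every conjugate of an element of `H` has the form `t * y`. -/
theorem conj_dec (g : G) {y : G} (hy : y ∈ H) :
    ∃ t n : G, Tr p H t ∧ n ∈ 𝐍(H) ∧ g * y * g⁻¹ = t * (n * y * n⁻¹) := by
  obtain ⟨t, n, ht, hn, rfl⟩ := e.ex_tr g
  exact ⟨_, n, e.tr_comm ht (conj_mem_of_mem_normalizer hn hy), hn, by group⟩

/-- The triangle lemma. -/
theorem tri (hD : ∀ c ∈ H, c ≠ 1 → ∀ a b : G, Tr p H a → Tr p H b →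
      a ∈ centralizer ({c} : Set G) → b ∈ centralizer ({c} : Set G) → Tr p H (a * b))
    {s u c : G} (hc : c ∈ H) (hc1 : c ≠ 1) (hs : Tr p H s) (hu : Tr p H u)
    (huc : u ∈ centralizer ({c} : Set G)) : Tr p H (s * u) := by
  obtain ⟨b, n, hb, hn, he⟩ := e.ex_tr (s * u)
  have hd1 : s * c * s⁻¹ ∈ H ^ᶜ s := cj_mem s hc
  have hd2 : s * c * s⁻¹ ∈ H ^ᶜ b := by
    have h1 : H ^ᶜ b = H ^ᶜ (s * u) := cj_eq_cj.2 (by rw [he]; simpa using hn)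
    have h2 : s * c * s⁻¹ = s * u * c * (s * u)⁻¹ := by
      rw [mul_assoc s u, mem_centralizer_singleton_iff.1 huc]; group
    rw [h1, h2]; exact cj_mem _ hc
  have gJ : Good H ((H ⊔ H ^ᶜ s) ⊓ (H ⊔ H ^ᶜ b)) :=
    (e.good s).mono (le_inf le_sup_left le_sup_left) inf_le_left
  obtain ⟨l, hl, hle⟩ := (e.syl gJ).exists_le_cj (R := zpowers (s * c * s⁻¹))
    ((isPGroup_cj e.hp s).to_le (zpowers_le_of_mem hd1))
    (zpowers_le_of_mem ⟨mem_sup_right hd1, mem_sup_right hd2⟩)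
  obtain ⟨j, hj, h, hh, rfl⟩ := e.dec gJ hl
  rw [← cj_cj, cj_eq_of_mem hh] at hle
  have hc0 : j⁻¹ * (s * c * s⁻¹) * j ∈ H := mem_cj.1 (hle (mem_zpowers _))
  have hne : j⁻¹ * (s * c * s⁻¹) * j ≠ 1 := fun h => hc1 (by
    have : c = s⁻¹ * j * (j⁻¹ * (s * c * s⁻¹) * j) * j⁻¹ * s := by group
    rw [this, h]; group)
  have key : ∀ a : G, Tr p H a → j ∈ 𝐑(p, H ⊔ H ^ᶜ a) → s * c * s⁻¹ ∈ H ^ᶜ a →
      Tr p H (j⁻¹ * a) ∧ j⁻¹ * a ∈ centralizer ({j⁻¹ * (s * c * s⁻¹) * j} : Set G) := by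
    intro a ha hja hda
    have h1 := e.tr (e.good a) (mul_mem (inv_mem hja) ha.res)
    refine ⟨h1, (?_ : H ⊔ H ^ᶜ (j⁻¹ * a) ≤ _) h1.mem⟩
    rw [← centralizer_zpowers]
    refine sup_le (e.ab.trans (centralizer_anti (zpowers_le_of_mem hc0))) ?_
    refine le_trans ?_ (centralizer_anti (B := H ^ᶜ (j⁻¹ * a)) (zpowers_le_of_mem ?_))
    · rw [← cj_centralizer]; exact cj_mono _ e.ab
    · rw [← cj_cj]; simpa using cj_mem j⁻¹ hda
  obtain ⟨h1, h2⟩ := key s hs (res_mono inf_le_left hj) hd1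
  obtain ⟨h3, h4⟩ := key b hb (res_mono inf_le_right hj) hd2
  have h5 := hD _ hc0 hne _ _ (e.inv h1) h3 (inv_mem h2) h4
  rw [show (j⁻¹ * s)⁻¹ * (j⁻¹ * b) = s⁻¹ * b by group] at h5
  have h6 := e.uniq h5 hu (by
    rw [show (s⁻¹ * b)⁻¹ * u = b⁻¹ * (s * u) by group, he]; simpa using hn)
  rw [← h6]; simpa using hb

end Ec

end H26.EC
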