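import Mathlib
import Cfsg.Prelude.Def_Characters
import Cfsg.Agent.Lib.Char.More
import Cfsg.Agent.Lib.Char.Galois

/-! Character count for a union of classes `K = T * Y`, `Y` the nonidentity elements of a subgroup. -/

set_option autoImplicit false

namespace H26.EC

open Cfsg H6
open scoped ComplexConjugate Classical

variable {G : Type*} [Group G]

/-- Positive definiteness of an irreducible character. -/
theorem posdef [Fintype G] {χ : G → ℂ} (h : IsIrrCharacter G χ) {ι : Type*} [Fintype ι]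
    (u : ι → G) (s : ι → ℝ) :
    0 ≤ (∑ i, ∑ j, (s i : ℂ) * (s j : ℂ) * χ ((u j)⁻¹ * u i)).re := by
  have hc := irr_isCharacter h
  obtain ⟨d, hd, h1⟩ := irr_one_pos h
  have hf : IsClassFunction G (fun g => χ g⁻¹) := char_isClassFunction (isCharacter_inv hc)
  have h2 : ∑ g : G, χ g⁻¹ * χ g = Nat.card G := by
    have := card_mul_classInner χ χ
    rw [irr_inner_self h, mul_one] at this
    rw [this]
    exact Finset.sum_congr rfl fun g _ => by rw [char_inv hc, mul_comm]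
  have h3 : ∀ a b : G, ∑ g : G, χ (g * a) * conj (χ (g * b)) = Nat.card G / d * χ (b⁻¹ * a) := by
    intro a b
    have := sum_mul_irr_mul h hf (b⁻¹ * a)
    rw [h2, h1] at this
    rw [← this, ← Equiv.sum_comp (Equiv.mulRight b⁻¹)]
    refine Finset.sum_congr rfl fun g _ => ?_
    simp only [Equiv.coe_mulRight, inv_mul_cancel, mul_one, ← char_inv hc, mul_assoc]
    rw [mul_comm]
  have h4 : (Nat.card G / d : ℂ) * ∑ i, ∑ j, (s i : ℂ) * (s j : ℂ) * χ ((u j)⁻¹ * u i) =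
      ((∑ g : G, Complex.normSq (∑ i, (s i : ℂ) * χ (g * u i)) : ℝ) : ℂ) := by
    push_cast
    simp only [← Complex.mul_conj, map_sum, map_mul, Complex.conj_ofReal, Finset.sum_mul_sum]
    rw [Finset.mul_sum, Finset.sum_comm (s := Finset.univ (α := G))]
    refine Finset.sum_congr rfl fun i _ => ?_
    rw [Finset.mul_sum, Finset.sum_comm (s := Finset.univ (α := G))]
    refine Finset.sum_congr rfl fun j _ => ?_
    rw [mul_left_comm, ← h3, Finset.mul_sum]
    exact Finset.sum_congr rfl fun g _ => by ring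
  have h5 := congrArg Complex.re h4
  have h6 : (Nat.card G / d : ℂ) = ((Nat.card G / d : ℝ) : ℂ) := by push_cast; rfl
  rw [h6, Complex.re_ofReal_mul, Complex.ofReal_re] at h5
  have h7 : (0 : ℝ) < Nat.card G / d := div_pos (by exact_mod_cast Nat.card_pos) (by exact_mod_cast hd)
  have h8 : 0 ≤ ∑ g : G, Complex.normSq (∑ i, (s i : ℂ) * χ (g * u i)) :=
    Finset.sum_nonneg fun g _ => Complex.normSq_nonneg _
  rw [← h5] at h8
  exact (mul_nonneg_iff_of_pos_left h7).1 h8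

theorem four [Fintype G] {χ : G → ℂ} (h : IsIrrCharacter G χ) {t y : G}
    (h1 : χ (t * y) = χ y) (h2 : χ (t⁻¹ * y) = χ y) :
    2 * (χ y).re ≤ (χ 1).re + (χ t).re := by
  have hc := irr_isCharacter h
  have hcl := char_isClassFunction hc
  have := posdef h ![1, t, y, t * y] ![1, 1, -1, -1]
  have e1 : χ (y⁻¹ * t) = conj (χ y) := by rw [← h2, ← char_inv hc]; simp
  have e2 : χ ((t * y)⁻¹) = conj (χ y) := by rw [← h1, ← char_inv hc]
  have e3 : χ ((t * y)⁻¹ * t) = conj (χ y) := by rw [← char_inv hc]; simp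
  have e4 : χ (y⁻¹ * (t * y)) = χ t := by
    have := hcl t y⁻¹
    rwa [inv_inv, mul_assoc] at this
  have e5 : χ ((t * y)⁻¹ * y) = conj (χ t) := by
    rw [← e4, ← char_inv hc]; simp [mul_assoc]
  simp only [Fin.sum_univ_four, Matrix.cons_val_zero, Matrix.cons_val_one, Matrix.cons_val,
    inv_one, one_mul, mul_one, inv_mul_cancel, inv_mul_cancel_left, e1, e2, e3, e4, e5, h1, h2,
    char_inv hc t, char_inv hc y] at this
  simp at this
  linarith

/-- The data of the count. -/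
structure Dat (H : Subgroup G) (T Y K : Finset G) : Prop where
  memY : ∀ y, y ∈ Y ↔ y ∈ H ∧ y ≠ 1
  oneT : 1 ∈ T
  invT : ∀ t ∈ T, t⁻¹ ∈ T
  cjT : ∀ t ∈ T, ∀ y ∈ Y, IsConj y (t * y)
  inj : ∀ s ∈ T, ∀ t ∈ T, s⁻¹ * t ∈ H → s = t
  memK : ∀ a, a ∈ K ↔ ∃ t ∈ T, ∃ y ∈ Y, a = t * y
  cjK : ∀ g : G, ∀ y ∈ Y, g * y * g⁻¹ ∈ K
  gen : Subgroup.normalClosure (H : Set G) = ⊤

namespace Dat

variable {H : Subgroup G} {T Y K : Finset G} (D : Dat H T Y K)
include D

theorem sumK {M : Type*} [AddCommMonoid M] (φ : G → M) :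
    ∑ a ∈ K, φ a = ∑ t ∈ T, ∑ y ∈ Y, φ (t * y) := by
  classical
  rw [← Finset.sum_product']
  symm
  refine Finset.sum_bij (fun x _ => x.1 * x.2) ?_ ?_ ?_ (fun _ _ => rfl)
  · intro x hx
    rw [Finset.mem_product] at hx
    exact (D.memK _).2 ⟨_, hx.1, _, hx.2, rfl⟩
  · rintro ⟨s, z⟩ hx ⟨t, y⟩ hy he
    simp only [Finset.mem_product] at hx hy he
    have : s = t := D.inj s hx.1 t hy.1 (by
      have : s⁻¹ * t = z * y⁻¹ := by rw [inv_mul_eq_iff_eq_mul, ← mul_assoc, he]; simp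
      rw [this]; exact H.mul_mem ((D.memY _).1 hx.2).1 (H.inv_mem ((D.memY _).1 hy.2).1))
    subst this
    rw [mul_left_cancel he]
  · intro a ha
    obtain ⟨t, ht, y, hy, rfl⟩ := (D.memK _).1 ha
    exact ⟨(t, y), Finset.mem_product.2 ⟨ht, hy⟩, rfl⟩

theorem invY {y : G} (hy : y ∈ Y) : y⁻¹ ∈ Y :=
  (D.memY _).2 ⟨H.inv_mem ((D.memY _).1 hy).1, inv_ne_one.2 ((D.memY _).1 hy).2⟩

theorem shift {M : Type*} [AddCommGroup M] (φ : G → M) {y : G} (hy : y ∈ Y) :
    ∑ z ∈ Y, φ (z * y) = φ 1 + ∑ z ∈ Y, φ z - φ y := by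
  classical
  have h1 : (1 : G) ∉ Y := fun h => ((D.memY _).1 h).2 rfl
  have hm : ∀ z, z ∈ insert 1 Y ↔ z ∈ H := fun z => by
    rw [Finset.mem_insert, D.memY]
    exact ⟨fun h => h.elim (fun h => h ▸ H.one_mem) And.left, fun h => by tauto⟩
  have hH := ((D.memY _).1 hy).1
  have : ∑ z ∈ insert 1 Y, φ (z * y) = ∑ z ∈ insert 1 Y, φ z :=
    Finset.sum_equiv (Equiv.mulRight y) (fun z => by
      rw [hm, hm]; exact (H.mul_mem_cancel_right hH).symm) (fun _ _ => rfl)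
  rw [Finset.sum_insert h1, Finset.sum_insert h1, one_mul] at this
  rw [← this]; abel

theorem conjK {a : G} (ha : a ∈ K) (g : G) : g * a * g⁻¹ ∈ K := by
  obtain ⟨t, ht, y, hy, rfl⟩ := (D.memK _).1 ha
  obtain ⟨c, hc⟩ := isConj_iff.1 (D.cjT t ht y hy)
  have := D.cjK (g * c) y hy
  rwa [show g * c * y * (g * c)⁻¹ = g * (c * y * c⁻¹) * g⁻¹ by group, hc] at this

theorem invK {a : G} (ha : a ∈ K) : a⁻¹ ∈ K := by
  obtain ⟨t, ht, y, hy, rfl⟩ := (D.memK _).1 ha
  obtain ⟨c, hc⟩ := isConj_iff.1 (D.cjT t ht y hy)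
  have := D.cjK c _ (D.invY hy)
  rwa [show c * y⁻¹ * c⁻¹ = (c * y * c⁻¹)⁻¹ by group, hc] at this

theorem notK {t : G} (ht : t ∈ T) : t ∉ K := fun h => by
  obtain ⟨s, hs, y, hy, he⟩ := (D.memK _).1 h
  have : s = t := D.inj s hs t ht (by rw [he, inv_mul_cancel_left]; exact ((D.memY _).1 hy).1)
  subst this
  exact ((D.memY _).1 hy).2 (by simpa using he.symm)

theorem cls : IsClassFunction G (fun g => if g ∈ K then (1 : ℂ) else 0) := by
  classical
  intro g h
  have : h * g * h⁻¹ ∈ K ↔ g ∈ K :=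
    ⟨fun h1 => by simpa [mul_assoc] using D.conjK h1 h⁻¹, fun h1 => D.conjK h1 h⟩
  simp only [this]

variable [Fintype G] {χ : G → ℂ}

omit [Fintype G] in
theorem sum_chi (h : IsIrrCharacter G χ) : ∑ a ∈ K, χ a = T.card * ∑ y ∈ Y, χ y := by
  rw [D.sumK, ← nsmul_eq_mul, ← Finset.sum_const]
  refine Finset.sum_congr rfl fun t ht => Finset.sum_congr rfl fun y hy => ?_
  obtain ⟨c, hc⟩ := isConj_iff.1 (D.cjT t ht y hy)
  rw [← hc, irr_isClassFunction h]

theorem central (h : IsIrrCharacter G χ) (g : G) :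
    ∑ a ∈ K, χ (a * g) = (T.card * ∑ y ∈ Y, χ y) / χ 1 * χ g := by
  classical
  have := sum_mul_irr_mul h D.cls g
  simp only [ite_mul, one_mul, zero_mul, Finset.sum_ite_mem, Finset.univ_inter] at this
  rw [this, D.sum_chi h]

theorem real (h : IsIrrCharacter G χ) : ∑ y ∈ Y, χ y = ((∑ y ∈ Y, χ y).re : ℂ) := by
  refine (Complex.conj_eq_iff_re.1 ?_).symm
  rw [map_sum]
  exact Finset.sum_equiv (Equiv.inv G) (fun y => ⟨D.invY, fun h => by simpa using D.invY h⟩)
    fun y _ => (char_inv (irr_isCharacter h) y).symm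

theorem quad (h : IsIrrCharacter G χ) :
    0 ≤ ((∑ y ∈ Y, χ y).re - (χ 1).re) * ((∑ y ∈ Y, χ y).re - Y.card * (χ 1).re) := by
  obtain ⟨d, hd, h1⟩ := irr_one_pos h
  have hcj : ∀ t ∈ T, ∀ y ∈ Y, χ (t * y) = χ y := fun t ht y hy => by
    obtain ⟨c, hc⟩ := isConj_iff.1 (D.cjT t ht y hy)
    rw [← hc, irr_isClassFunction h]
  have h2 : ∀ y ∈ Y, (T.card * ∑ y ∈ Y, χ y) / χ 1 * χ y =
      ∑ t ∈ T, χ t + T.card * (∑ z ∈ Y, χ z - χ y) := fun y hy => by
    rw [← D.central h, D.sumK, ← nsmul_eq_mul T.card (_ - _), ← Finset.sum_const,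
      ← Finset.sum_add_distrib]
    refine Finset.sum_congr rfl fun t ht => ?_
    have := D.shift (fun z => χ (t * z)) hy
    simp only [mul_one, ← mul_assoc] at this
    rw [this, hcj t ht y hy, Finset.sum_congr rfl (hcj t ht)]
    ring
  have h3 := Finset.sum_congr rfl h2
  rw [← Finset.mul_sum, Finset.sum_add_distrib, ← Finset.mul_sum, Finset.sum_sub_distrib,
    Finset.sum_const, Finset.sum_const, nsmul_eq_mul, nsmul_eq_mul, h1, D.real h] at h3
  have h4 : ∑ t ∈ T, ∑ y ∈ Y, 2 * (χ y).re ≤ ∑ t ∈ T, ∑ y ∈ Y, ((χ 1).re + (χ t).re) :=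
    Finset.sum_le_sum fun t ht => Finset.sum_le_sum fun y hy =>
      four h (hcj t ht y hy) (hcj _ (D.invT t ht) y hy)
  simp only [← Finset.mul_sum, Finset.sum_const, nsmul_eq_mul, Finset.sum_add_distrib,
    ← Complex.re_sum] at h4
  set u := (∑ y ∈ Y, χ y).re
  have h5 := congrArg Complex.re h3
  have h6 : ((T.card : ℂ) * (u : ℂ) / (d : ℂ) * (u : ℂ)) = ((T.card * u / d * u : ℝ) : ℂ) := by
    push_cast; rfl
  rw [h6] at h5
  simp only [Complex.ofReal_re, Complex.add_re, Complex.mul_re, Complex.natCast_re,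
    Complex.natCast_im, Complex.sub_re, Complex.ofReal_im, zero_mul, sub_zero, mul_zero] at h5
  rw [h1] at h4 ⊢
  simp only [Complex.natCast_re] at h4 ⊢
  have hn : (0 : ℝ) < T.card := by exact_mod_cast Finset.card_pos.2 ⟨1, D.oneT⟩
  have hd' : (0 : ℝ) < d := by exact_mod_cast hd
  have h7 : (T.card : ℝ) * (2 * u - Y.card * d + (Y.card * u - u)) ≤ T.card * (u / d * u) := by
    have : (T.card : ℝ) * (u / d * u) = T.card * u / d * u := by ring
    rw [this, h5]; nlinarith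
  have h8 := le_of_mul_le_mul_left h7 hn
  have h9 : u / d * u * d = u * u := by field_simp
  nlinarith [mul_le_mul_of_nonneg_right h8 hd'.le]

theorem le_deg (h : IsIrrCharacter G χ) (hne : χ ≠ fun _ => 1) :
    (∑ y ∈ Y, χ y).re ≤ (χ 1).re := by
  obtain ⟨d, hd, h1⟩ := irr_one_pos h
  have hc := irr_isCharacter h
  have hle : ∀ y, ‖χ y‖ ≤ d := fun y => by simpa [h1] using char_norm_le hc y
  have hlt : (∑ y ∈ Y, χ y).re < Y.card * (χ 1).re := by
    by_contra hge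
    refine hne (irr_eq_one_of_forall_eq h fun g => ?_)
    have hk : H ≤ charKer χ := fun y hy => by
      by_cases hy1 : y = 1
      · rw [hy1]; exact one_mem _
      rw [mem_charKer hc]
      by_contra hne
      refine hge ?_
      rw [Complex.re_sum, ← nsmul_eq_mul, ← Finset.sum_const, h1, Complex.natCast_re]
      refine Finset.sum_lt_sum (fun z _ => (Complex.re_le_norm _).trans (hle z))
        ⟨y, (D.memY _).2 ⟨hy, hy1⟩, lt_of_le_of_ne ((Complex.re_le_norm _).trans (hle y))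
          fun he => hne ?_⟩
      have h2 : ‖χ y‖ = (χ y).re := le_antisymm (he ▸ hle y) (Complex.re_le_norm _)
      have h3 := (Complex.le_def.1 (Complex.re_eq_norm.1 h2.symm)).2
      rw [h1]
      exact Complex.ext (by simpa using he) (by simpa using h3.symm)
    have hn : (charKer χ).Normal := ⟨fun n hn g => by
      rw [mem_charKer hc] at hn ⊢
      rw [char_isClassFunction hc, hn]⟩
    have : (⊤ : Subgroup G) ≤ charKer χ := D.gen ▸ Subgroup.normalClosure_le_normal hk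
    exact (mem_charKer hc).1 (this (Subgroup.mem_top g))
  by_contra hgt
  nlinarith [D.quad h, mul_pos (sub_pos.2 (not_le.1 hgt)) (sub_pos.2 hlt)]

theorem e1 (g : G) : ∑ χ : IrrCharacter G, (T.card * ∑ y ∈ Y, χ.1 y) * χ.1 g =
    Nat.card G * (if g ∈ K then 1 else 0) := by
  classical
  have h1 := sum_mul_regChar (fun g => if g ∈ K then (1 : ℂ) else 0) g
  have h2 : g⁻¹ ∈ K ↔ g ∈ K := ⟨fun h => by simpa using D.invK h, D.invK⟩
  simp only [ite_mul, one_mul, zero_mul, Finset.sum_ite_mem, Finset.univ_inter, h2] at h1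
  rw [← h1, regChar_eq_sum]
  simp only [Finset.sum_apply, Pi.smul_apply, smul_eq_mul]
  rw [Finset.sum_comm]
  refine Finset.sum_congr rfl fun χ _ => ?_
  rw [← Finset.mul_sum, D.central χ.2]
  have := irr_one_ne_zero χ.2
  field_simp

theorem e2 {y : G} (hy : y ∈ Y) : ∑ χ : IrrCharacter G,
    (T.card * ∑ y ∈ Y, χ.1 y) * ((T.card * ∑ y ∈ Y, χ.1 y) / χ.1 1 * χ.1 y) =
    Nat.card G * (T.card * (Y.card - 1)) := by
  classical
  simp only [fun χ : IrrCharacter G => (D.central χ.2 y).symm]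
  simp only [Finset.mul_sum K]
  rw [Finset.sum_comm]
  simp only [D.e1]
  rw [← Finset.mul_sum, D.sumK, ← nsmul_eq_mul T.card (_ - _), ← Finset.sum_const]
  congr 1
  refine Finset.sum_congr rfl fun t ht => ?_
  have := D.shift (fun z => if t * z ∈ K then (1 : ℂ) else 0) hy
  simp only [mul_one, ← mul_assoc] at this
  have hk : ∀ z ∈ Y, (if t * z ∈ K then (1 : ℂ) else 0) = 1 := fun z hz =>
    if_pos ((D.memK _).2 ⟨t, ht, z, hz, rfl⟩)
  rw [this, if_neg (D.notK ht), Finset.sum_congr rfl hk, hk y hy]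
  simp

/-- The cubic count. -/
theorem count : ∑ χ ∈ Finset.univ.erase (⟨fun _ => 1, isIrrCharacter_one⟩ : IrrCharacter G),
    (T.card : ℝ) * ((∑ y ∈ Y, χ.1 y).re ^ 2 * (1 - (∑ y ∈ Y, χ.1 y).re / (χ.1 1).re)) =
    (Y.card : ℝ) * (2 - (Y.card : ℝ)) * (Nat.card G : ℝ) +
      (T.card : ℝ) * ((Y.card : ℝ) ^ 2 * ((Y.card : ℝ) - 1)) := by
  have hn : (T.card : ℂ) ≠ 0 := by exact_mod_cast (Finset.card_pos.2 ⟨1, D.oneT⟩).ne'
  have h1 : ∑ y ∈ Y, ∑ χ : IrrCharacter G, (T.card * ∑ y ∈ Y, χ.1 y) * χ.1 y =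
      Y.card * Nat.card G := by
    rw [← nsmul_eq_mul, ← Finset.sum_const]
    refine Finset.sum_congr rfl fun y hy => ?_
    rw [D.e1, if_pos ((D.memK _).2 ⟨1, D.oneT, y, hy, (one_mul y).symm⟩), mul_one]
  have h2 := Finset.sum_congr rfl fun y hy => D.e2 (y := y) hy
  rw [Finset.sum_comm] at h1 h2
  simp only [← Finset.mul_sum, Finset.sum_const, nsmul_eq_mul] at h1 h2
  have h3 : ∑ χ : IrrCharacter G, (((T.card : ℝ) * ((∑ y ∈ Y, χ.1 y).re ^ 2 *
      (1 - (∑ y ∈ Y, χ.1 y).re / (χ.1 1).re)) : ℝ) : ℂ) =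
      ((Y.card * (2 - Y.card) * Nat.card G : ℝ) : ℂ) := by
    have h4 : ∀ χ : IrrCharacter G, (((T.card : ℝ) * ((∑ y ∈ Y, χ.1 y).re ^ 2 *
        (1 - (∑ y ∈ Y, χ.1 y).re / (χ.1 1).re)) : ℝ) : ℂ) =
        (T.card * ∑ y ∈ Y, χ.1 y) * (∑ y ∈ Y, χ.1 y) - (T.card : ℂ)⁻¹ *
          ((T.card * ∑ y ∈ Y, χ.1 y) * ((T.card * ∑ y ∈ Y, χ.1 y) / χ.1 1 * ∑ y ∈ Y, χ.1 y)) := by
      intro χ
      obtain ⟨d, hd, h1⟩ := irr_one_pos χ.2
      have hd' : (d : ℂ) ≠ 0 := by exact_mod_cast hd.ne'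
      rw [h1]
      push_cast
      rw [← D.real χ.2, Complex.natCast_re]
      push_cast
      field_simp
    simp only [h4]
    rw [Finset.sum_sub_distrib, ← Finset.mul_sum, h1, h2]
    push_cast
    field_simp
    ring
  rw [← Complex.ofReal_sum, Complex.ofReal_inj, ← Finset.add_sum_erase _ _
    (Finset.mem_univ (⟨fun _ => 1, isIrrCharacter_one⟩ : IrrCharacter G))] at h3
  simp only [Finset.sum_const, nsmul_eq_mul, mul_one, Complex.natCast_re, Complex.one_re,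
    div_one] at h3
  linarith

theorem term_nonneg {χ : IrrCharacter G}
    (h : χ ∈ Finset.univ.erase (⟨fun _ => 1, isIrrCharacter_one⟩ : IrrCharacter G)) :
    0 ≤ (T.card : ℝ) * ((∑ y ∈ Y, χ.1 y).re ^ 2 * (1 - (∑ y ∈ Y, χ.1 y).re / (χ.1 1).re)) := by
  obtain ⟨d, hd, h1⟩ := irr_one_pos χ.2
  have h2 := D.le_deg χ.2 fun he => (Finset.mem_erase.1 h).1 (Subtype.ext he)
  have hd' : (0 : ℝ) < (χ.1 1).re := by rw [h1]; exact_mod_cast hd
  have := (div_le_one hd').2 h2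
  exact mul_nonneg (Nat.cast_nonneg _) (mul_nonneg (sq_nonneg _) (by linarith))

theorem big : (Y.card : ℝ) * ((Y.card - 2) * Nat.card G) ≤
    Y.card * (T.card * (Y.card * (Y.card - 1))) := by
  have := Finset.sum_nonneg fun χ h => D.term_nonneg (χ := χ) h
  rw [D.count] at this
  linarith

theorem three (hY : Y.card = 2)
    (hZ : ∀ χ : IrrCharacter G, ∃ z : ℤ, ∑ y ∈ Y, χ.1 y = 2 * z) : False := by
  have hn : (0 : ℝ) < T.card := by exact_mod_cast Finset.card_pos.2 ⟨1, D.oneT⟩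
  have h1 := congrArg Complex.re (D.e1 1)
  rw [if_neg (D.notK D.oneT), mul_zero, Complex.re_sum, Complex.zero_re] at h1
  obtain ⟨χ, hχ⟩ : ∃ χ : IrrCharacter G, ((T.card * ∑ y ∈ Y, χ.1 y) * χ.1 1).re < 0 := by
    by_contra hc
    push Not at hc
    have := (Finset.sum_eq_zero_iff_of_nonneg fun χ _ => hc χ).1 h1
      ⟨fun _ => 1, isIrrCharacter_one⟩ (Finset.mem_univ _)
    simp [hY, Finset.card_eq_zero] at this
    exact absurd D.oneT (this ▸ Finset.notMem_empty _)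
  obtain ⟨z, hz⟩ := hZ χ
  obtain ⟨d, hd, hd1⟩ := irr_one_pos χ.2
  have hd' : (0 : ℝ) < d := by exact_mod_cast hd
  have h2 : ((T.card * ∑ y ∈ Y, χ.1 y) * χ.1 1) = ((T.card * (2 * z) * d : ℝ) : ℂ) := by
    rw [hz, hd1]; push_cast; rfl
  rw [h2, Complex.ofReal_re] at hχ
  have hz0 : (z : ℝ) < 0 := by
    by_contra hc
    have : (0 : ℝ) ≤ T.card * (2 * z) * d := by
      have := not_lt.1 hc
      positivity
    linarith
  have hz1 : (z : ℝ) ≤ -1 := by
    have : z < 0 := by exact_mod_cast hz0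
    exact_mod_cast (by omega : z ≤ -1)
  have hre : (∑ y ∈ Y, χ.1 y).re = 2 * z := by rw [hz]; simp
  have hm : χ ∈ Finset.univ.erase (⟨fun _ => 1, isIrrCharacter_one⟩ : IrrCharacter G) := by
    refine Finset.mem_erase.2 ⟨fun he => ?_, Finset.mem_univ _⟩
    rw [he] at hre
    simp only [Finset.sum_const, hY, nsmul_eq_mul, mul_one, Complex.natCast_re] at hre
    push_cast at hre
    linarith
  have h3 := Finset.single_le_sum (fun χ h => D.term_nonneg (χ := χ) h) hm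
  rw [D.count, hre, hd1, hY, Complex.natCast_re] at h3
  have h4 : 2 * (z : ℝ) / d < 0 := div_neg_of_neg_of_pos (by linarith) hd'
  have h6 : (4 : ℝ) ≤ (2 * z) ^ 2 := by nlinarith
  have h5 : (4 : ℝ) < (2 * z) ^ 2 * (1 - 2 * z / d) := by
    nlinarith [mul_pos (lt_of_lt_of_le (by norm_num : (0 : ℝ) < 4) h6) (neg_pos.2 h4)]
  push_cast at h3
  nlinarith

end Dat

end H26.EC
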