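import Mathlib
import Cfsg.Agent.Lib.ExC.Basic
import Cfsg.Agent.Lib.ExC.Char

/-! The cases of the induction. -/

set_option autoImplicit false

namespace H26.EC

open Cfsg Subgroup H69 H59

variable {G : Type*} [Group G] {p : ℕ} {H L : Subgroup G}

theorem exists_stab (S : G → Prop) : ∃ W : Subgroup G, ∀ g, g ∈ W ↔ ∀ a, S a ↔ S (a * g) :=
  ⟨{ carrier := {g | ∀ a, S a ↔ S (a * g)}
     one_mem' := fun a => by rw [mul_one]
     mul_mem' := fun {x y} hx hy a => by rw [← mul_assoc, ← hy, ← hx]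
     inv_mem' := fun {x} hx a => by rw [hx (a * x⁻¹), inv_mul_cancel_right] }, fun _ => Iff.rfl⟩

theorem mem_stab {S : G → Prop} {W : Subgroup G} (hW : ∀ g, g ∈ W ↔ ∀ a, S a ↔ S (a * g)) {g : G}
    (h1 : ∀ a, S a → S (a * g)) (h2 : ∀ a, S a → S (a * g⁻¹)) : g ∈ W :=
  (hW g).2 fun a => ⟨h1 a, fun h => by simpa using h2 _ h⟩

theorem Tr.mem_ncl {t : G} (h : Tr p H t) : t ∈ normalClosure (H : Set G) :=
  (sup_le le_normalClosure (cj_le_of_mem_normalizer le_normalClosure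
    (by rw [normalizer_eq_top]; trivial)) : _ ≤ normalClosure (H : Set G)) h.mem

theorem gen_conj {y n : G} (hy : zpowers y = H) (hn : n ∈ 𝐍(H)) : zpowers (n * y * n⁻¹) = H := by
  rw [← cj_zpowers, hy, cj_eq_of_mem_normalizer hn]

namespace Ec

variable (e : Ec p H) [Finite G] [Fact p.Prime]
include e

theorem good_ncl {W : Subgroup G}
    (hW : ∀ g, g ∈ W ↔ ∀ a, (∃ t h, Tr p H t ∧ h ∈ H ∧ a = t * h) ↔
      (∃ t h, Tr p H t ∧ h ∈ H ∧ a * g = t * h))
    (hT : ∀ t, Tr p H t → t ∈ W) : Good H (normalClosure (H : Set G)) := by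
  have h0 : ∀ k ∈ H, ∀ a, (∃ t h, Tr p H t ∧ h ∈ H ∧ a = t * h) →
      (∃ t h, Tr p H t ∧ h ∈ H ∧ a * k = t * h) := by
    rintro k hk _ ⟨t, h, ht, hh, rfl⟩
    exact ⟨t, h * k, ht, mul_mem hh hk, mul_assoc _ _ _⟩
  have hH : H ≤ W := fun k hk => mem_stab hW (h0 k hk) (h0 _ (inv_mem hk))
  have hle : normalClosure (H : Set G) ≤ W := (closure_le _).2 fun a ha => by
    obtain ⟨h, hh, hc⟩ := Group.mem_conjugatesOfSet_iff.1 ha
    obtain ⟨g, rfl⟩ := isConj_iff.1 hc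
    obtain ⟨t, n, ht, hn, he⟩ := e.conj_dec g hh
    rw [he]
    exact mul_mem (hT t ht) (hH (conj_mem_of_mem_normalizer hn hh))
  refine ⟨le_normalClosure, fun a ha => ?_⟩
  obtain ⟨t, h, ht, hh, he⟩ := ((hW a).1 (hle ha.1) 1).1 ⟨1, 1, Tr.one, one_mem _, by simp⟩
  rw [one_mul] at he
  have := e.uniq Tr.one ht (by
    have : a * h⁻¹ ∈ 𝐍(H) := mul_mem (mem_inf.1 ha).2 (inv_mem (le_normalizer hh))
    simpa [he] using this)
  rw [he, ← this, one_mul]
  exact hh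

theorem good_of_cl (h : ∀ s t, Tr p H s → Tr p H t → Tr p H (s * t)) :
    Good H (normalClosure (H : Set G)) := by
  obtain ⟨W, hW⟩ := exists_stab fun a => ∃ t h, Tr p H t ∧ h ∈ H ∧ a = t * h
  have h0 : ∀ s, Tr p H s → ∀ a, (∃ t h, Tr p H t ∧ h ∈ H ∧ a = t * h) →
      (∃ t h, Tr p H t ∧ h ∈ H ∧ a * s = t * h) := by
    rintro s hs _ ⟨t, k, ht, hk, rfl⟩
    exact ⟨_, k, h _ _ ht (hs.conj (le_normalizer hk)), hk, by group⟩
  exact e.good_ncl hW fun t ht => mem_stab hW (h0 t ht) (h0 _ (e.inv ht))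

theorem noncyc (hnc : ¬ IsCyclic H) (hD : ∀ s u c : G, c ∈ H → c ≠ 1 → Tr p H s → Tr p H u →
      u ∈ centralizer ({c} : Set G) → Tr p H (s * u)) :
    Good H (normalClosure (H : Set G)) := by
  obtain ⟨W, hW⟩ := exists_stab (Tr p H)
  refine e.good_of_cl fun s t hs ht => ((hW t).1 ?_ s).1 hs
  refine H2.le_of_forall_centralizer_le (le_centralizer_iff_isMulCommutative.1 e.ab) hnc
    ((e.good t).le.trans (le_normalizer_res _)) (e.copH (e.good t) le_rfl)
    (fun c hc hc1 u hu => ?_) ht.res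
  have h1 := e.tr (e.good t) hu.1
  exact mem_stab hW (fun a ha => hD a u c hc hc1 ha h1 hu.2)
    (fun a ha => hD a _ c hc hc1 ha (e.inv h1) (inv_mem hu.2))

omit [Fact p.Prime] in
theorem gen_mul {y w : G} (hy : zpowers y = H) (hw : w ∈ H) : zpowers (y * w ^ p) = H := by
  have hyH : y ∈ H := hy ▸ mem_zpowers y
  obtain ⟨j, rfl⟩ := (mem_powers_iff_mem_zpowers.2 (hy ▸ hw : w ∈ zpowers y))
  obtain ⟨n, hn⟩ := e.hp ⟨y, hyH⟩
  have h1 : orderOf y ∣ p ^ n := orderOf_dvd_of_pow_eq_one (congrArg Subtype.val hn)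
  refine le_antisymm (zpowers_le_of_mem (mul_mem hyH (pow_mem hw p))) (hy ▸ zpowers_le_of_mem ?_)
  change y ∈ zpowers (y * (y ^ j) ^ p)
  rw [← pow_mul, ← pow_succ', mem_zpowers_pow_iff]
  exact Nat.Coprime.coprime_dvd_right h1 (Nat.Coprime.pow_right n (by simp))

theorem bigcyc {x : G} (hx : zpowers x = H) (hD : ∀ s u : G, Tr p H s → Tr p H u →
      u ∈ centralizer ({x ^ p} : Set G) → Tr p H (s * u)) :
    Good H (normalClosure (H : Set G)) := by
  have hxH : x ∈ H := hx ▸ mem_zpowers x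
  obtain ⟨W, hW⟩ := exists_stab fun a => ∃ t h, Tr p H t ∧ h ∈ H ∧ a = t * h
  obtain ⟨M, hM⟩ := exists_stab fun a => ∃ y, zpowers y = H ∧ IsConj y a
  have hdec : ∀ a, (∃ y, zpowers y = H ∧ IsConj y a) →
      ∃ t y, Tr p H t ∧ zpowers y = H ∧ a = t * y := by
    rintro a ⟨y, hy, hc⟩
    obtain ⟨g, rfl⟩ := isConj_iff.1 hc
    obtain ⟨t, n, ht, hn, he⟩ := e.conj_dec g (hy ▸ mem_zpowers y : y ∈ H)
    exact ⟨t, _, ht, gen_conj hy hn, he⟩
  have hcj : ∀ a g : G, (∃ y, zpowers y = H ∧ IsConj y (g * a * g⁻¹)) ↔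
      ∃ y, zpowers y = H ∧ IsConj y a := fun a g =>
    exists_congr fun y => and_congr_right fun _ =>
      ⟨fun h => h.trans (isConj_iff.2 ⟨g, rfl⟩).symm, fun h => h.trans (isConj_iff.2 ⟨g, rfl⟩)⟩
  haveI : M.Normal := ⟨fun m hm g => (hM _).2 fun a => by
    rw [← hcj a g⁻¹, (hM m).1 hm, ← hcj _ g]
    simp only [inv_inv, mul_assoc, mul_inv_cancel_left]⟩
  have h1 : ∀ w ∈ H, ∀ a, (∃ y, zpowers y = H ∧ IsConj y a) →
      ∃ y, zpowers y = H ∧ IsConj y (a * w ^ p) := fun w hw a ha => by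
    obtain ⟨t, y, ht, hy, rfl⟩ := hdec a ha
    exact ⟨_, e.gen_mul hy hw, mul_assoc t y _ ▸ e.isConj ht (e.gen_mul hy hw)⟩
  have hc : x ^ p ∈ M := mem_stab hM (h1 x hxH) (inv_pow x p ▸ h1 _ (inv_mem hxH))
  have h2 : ∀ m ∈ M, ∀ a, (∃ t h, Tr p H t ∧ h ∈ H ∧ a = t * h) →
      (∃ t h, Tr p H t ∧ h ∈ H ∧ a * m = t * h) := by
    rintro m hm _ ⟨t, h, ht, hh, rfl⟩
    obtain ⟨s, y, hs, hy, he⟩ := hdec _ (((hM _).1
      (Normal.conj_mem inferInstance m hm (x⁻¹ * h)) (t * x)).1 ⟨x, hx, e.isConj ht hx⟩)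
    refine ⟨s, y * (x⁻¹ * h), hs, mul_mem (hy ▸ mem_zpowers y) (mul_mem (inv_mem hxH) hh), ?_⟩
    rw [← mul_assoc s, ← he]; group
  have h3 : ∀ u, Tr p H u → u ∈ centralizer ({x ^ p} : Set G) →
      ∀ a, (∃ t h, Tr p H t ∧ h ∈ H ∧ a = t * h) →
      (∃ t h, Tr p H t ∧ h ∈ H ∧ a * u = t * h) := by
    rintro u hu huc _ ⟨t, h, ht, hh, rfl⟩
    have hhc : h ∈ centralizer ({x ^ p} : Set G) :=
      mem_centralizer_singleton_iff.2 (e.comm hh (pow_mem hxH p))
    exact ⟨_, h, hD _ _ ht (hu.conj (le_normalizer hh))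
      (mul_mem (mul_mem hhc huc) (inv_mem hhc)), hh, by group⟩
  refine e.good_ncl hW fun t ht => ?_
  have hA : zpowers (x ^ p) ≤ H := zpowers_le_of_mem (pow_mem hxH p)
  obtain ⟨m, hm, u, hu, he⟩ := H2.exists_commutator_mul_centralizer
    (hA.trans ((e.good t).le.trans (le_normalizer_res _))) (e.copH (e.good t) hA)
    (Or.inl (H2.isSolvable_zpowers _)) ht.res
  have hmM : m ∈ M :=
    ((commutator_mono le_rfl (zpowers_le_of_mem hc)).trans (commutator_le_right _ M)) hm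
  have hu1 := e.tr (e.good t) hu.1
  have hu2 : u ∈ centralizer ({x ^ p} : Set G) := centralizer_zpowers (x ^ p) ▸ hu.2
  rw [he]
  exact mul_mem (mem_stab hW (h2 m hmM) (h2 _ (inv_mem hmM)))
    (mem_stab hW (h3 u hu1 hu2) (h3 _ (e.inv hu1) (inv_mem hu2)))

theorem flat {x : G} (hx : zpowers x = H) (hx2 : zpowers (x * x) = H) (hN : 𝐍(H) ≤ 𝐂(H)) :
    Good H (normalClosure (H : Set G)) := by
  have hxH : x ∈ H := hx ▸ mem_zpowers x
  have hdec : ∀ z ∈ H, ∀ b, IsConj z b → ∃ t, Tr p H t ∧ b = t * z := fun z hz b hc => by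
    obtain ⟨g, rfl⟩ := isConj_iff.1 hc
    obtain ⟨t, n, ht, hn, he⟩ := e.conj_dec g hz
    exact ⟨t, ht, by rwa [conj_eq_of_mem_centralizer (hN hn) hz] at he⟩
  have hpr : ∀ y ∈ H, ∀ z ∈ H, zpowers (y * z) = H → ∀ a b, IsConj y a → IsConj z b →
      IsConj (y * z) (a * b) := fun y hy z hz hyz a b ha hb => by
    obtain ⟨g, rfl⟩ := isConj_iff.1 ha
    obtain ⟨t, ht, he⟩ := hdec z hz (g⁻¹ * b * g⁻¹⁻¹) (hb.trans (isConj_iff.2 ⟨g⁻¹, rfl⟩))
    refine (e.isConj (ht.conj (le_normalizer hy)) hyz).trans (isConj_iff.2 ⟨g, ?_⟩)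
    have : b = g * (t * z) * g⁻¹ := by rw [← he]; group
    rw [this]; group
  refine e.good_of_cl fun s t hs ht => ?_
  have h1 := hpr x hxH x hxH hx2 _ _ (e.isConj ht hx) (e.isConj hs hx)
  have h2 := hpr _ (mul_mem hxH hxH) _ (inv_mem hxH) (by simpa using hx) _ _ h1 (IsConj.refl _)
  rw [mul_inv_cancel_right] at h2
  obtain ⟨r, hr, he⟩ := hdec x hxH (s * t * x) (h2.trans (isConj_iff.2 ⟨(t * x)⁻¹, by group⟩))
  rwa [mul_right_cancel he]

open scoped Classical in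
theorem prime (hp2 : p ≠ 2) (hc : Nat.card H = p) (hg : normalClosure (H : Set G) = ⊤) :
    Good H (normalClosure (H : Set G)) := by
  have hp : p.Prime := Fact.out
  haveI := Fintype.ofFinite G
  have hgen : ∀ y ∈ H, y ≠ 1 → zpowers y = H := fun y hy hy1 => by
    have h1 : orderOf y ∣ p := hc ▸ orderOf_dvd_natCard H hy
    refine eq_of_le_of_card_ge (zpowers_le_of_mem hy) ?_
    rw [Nat.card_zpowers, hc, (hp.eq_one_or_self_of_dvd _ h1).resolve_left
      (mt orderOf_eq_one_iff.1 hy1)]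
  set T := Finset.univ.filter (Tr p H) with hT
  set Y := Finset.univ.filter (fun y => y ∈ H ∧ y ≠ 1) with hY
  have mT : ∀ t, t ∈ T ↔ Tr p H t := fun t => by simp [hT]
  have mY : ∀ y, y ∈ Y ↔ y ∈ H ∧ y ≠ 1 := fun t => by simp [hY]
  have hYn : ∀ y ∈ Y, ∀ n ∈ 𝐍(H), n * y * n⁻¹ ∈ Y := fun y hy n hn =>
    (mY _).2 ⟨conj_mem_of_mem_normalizer hn ((mY _).1 hy).1, by simpa using ((mY _).1 hy).2⟩
  have D : Dat H T Y (Finset.univ.filter fun a => ∃ t ∈ T, ∃ y ∈ Y, a = t * y) :=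
    { memY := mY
      oneT := (mT _).2 Tr.one
      invT := fun t ht => (mT _).2 (e.inv ((mT _).1 ht))
      cjT := fun t ht y hy => e.isConj ((mT _).1 ht) (hgen y ((mY _).1 hy).1 ((mY _).1 hy).2)
      inj := fun s hs t ht h => e.uniq ((mT _).1 hs) ((mT _).1 ht) (le_normalizer h)
      memK := fun a => by simp
      cjK := fun g y hy => by
        obtain ⟨t, n, ht, hn, he⟩ := e.conj_dec g ((mY _).1 hy).1
        exact Finset.mem_filter.2 ⟨Finset.mem_univ _, t, (mT _).2 ht, _, hYn y hy n hn, he⟩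
      gen := hg }
  have hYc : Y.card + 1 = p := by
    have h1 : (1 : G) ∉ Y := fun h => ((mY _).1 h).2 rfl
    rw [← Finset.card_insert_of_notMem h1, ← hc, Nat.card_eq_fintype_card, Fintype.card_subtype]
    congr 1
    ext z
    rw [Finset.mem_insert, mY]
    simp only [Finset.mem_filter, Finset.mem_univ, true_and]
    exact ⟨fun h => h.elim (fun h => h ▸ H.one_mem) And.left, fun h => by tauto⟩
  by_cases h3 : p = 3
  · have hY2 : Y.card = 2 := by omega
    obtain ⟨x, hx⟩ := Finset.card_pos.1 (by omega : 0 < Y.card)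
    have hx' := (mY _).1 hx
    have hxx : x * x ≠ 1 := fun h => by
      have h1 : orderOf x ∣ 2 := orderOf_dvd_of_pow_eq_one (by rw [pow_two, h])
      have h2 : orderOf x = 3 := by rw [← Nat.card_zpowers, hgen x hx'.1 hx'.2, hc, h3]
      rw [h2] at h1
      omega
    refine e.flat (hgen x hx'.1 hx'.2) (hgen _ (mul_mem hx'.1 hx'.1) hxx) fun n hn => ?_
    rw [← hgen x hx'.1 hx'.2, centralizer_zpowers, mem_centralizer_singleton_iff]
    by_contra hne
    have hne' : x ≠ n * x * n⁻¹ := fun h => hne (by rw [eq_mul_inv_iff_mul_eq] at h; exact h.symm)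
    have hYe : {x, n * x * n⁻¹} = Y := Finset.eq_of_subset_of_card_le
      (Finset.insert_subset hx (Finset.singleton_subset_iff.2 (hYn x hx n hn)))
      (by rw [Finset.card_pair hne', hY2])
    refine D.three hY2 fun χ => ?_
    have hcl := H6.irr_isClassFunction χ.2
    have hall : ∀ y ∈ Y, χ.1 y = χ.1 x := fun y hy => by
      rw [← hYe, Finset.mem_insert, Finset.mem_singleton] at hy
      rcases hy with rfl | rfl
      · rfl
      · exact hcl _ _
    obtain ⟨z, hz⟩ := H8.exists_int_of_forall_ringEquiv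
      (H6.char_isIntegral (H6.irr_isCharacter χ.2) x) fun σ => by
        obtain ⟨m, hm, hσ⟩ := H8.exists_pow_map_character (G := G) (σ : ℂ →+* ℂ)
        refine (hσ χ.1 (Or.inr (H6.irr_isCharacter χ.2)) x).trans
          (hall _ ((mY _).2 ⟨pow_mem hx'.1 m, fun h => hx'.2 ?_⟩))
        exact orderOf_eq_one_iff.1 (Nat.eq_one_of_dvd_coprimes hm (orderOf_dvd_of_pow_eq_one h)
          (orderOf_dvd_natCard x))
    exact ⟨z, by rw [Finset.sum_congr rfl hall, Finset.sum_const, hY2, hz]; simp⟩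
  · refine ⟨le_normalClosure, inf_le_right.trans ?_⟩
    by_contra hN
    have h5 : 5 ≤ p := hp.five_le_of_ne_two_of_ne_three hp2 h3
    obtain ⟨k, hk⟩ := card_dvd_of_le (le_normalizer : H ≤ 𝐍(H))
    have hk2 : 2 ≤ k := by
      by_contra h
      refine hN (eq_of_le_of_card_ge le_normalizer ?_).ge
      rw [hk]
      exact (Nat.mul_le_mul_left _ (by omega : k ≤ 1)).trans (mul_one _).le
    have hG : T.card * Nat.card 𝐍(H) ≤ Nat.card G := by
      rw [← Nat.card_eq_finsetCard, ← Nat.card_prod]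
      refine Nat.card_le_card_of_injective (fun x => (x.1 : G) * x.2) ?_
      rintro ⟨s, m⟩ ⟨t, n⟩ h
      have h' : (s : G) * m = t * n := h
      have h1 : (s : G) = t := e.uniq ((mT _).1 s.2) ((mT _).1 t.2) (by
        have : (s : G)⁻¹ * t = m * (n : G)⁻¹ := by
          rw [inv_mul_eq_iff_eq_mul, ← mul_assoc, h']; simp
        rw [this]; exact mul_mem m.2 (inv_mem n.2))
      rw [h1] at h'
      exact Prod.ext (Subtype.ext h1) (Subtype.ext (mul_left_cancel h'))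
    have hb := D.big
    have hn : (0 : ℝ) < T.card := by exact_mod_cast Finset.card_pos.2 ⟨1, D.oneT⟩
    have hq : (4 : ℝ) ≤ Y.card := by exact_mod_cast (by omega : 4 ≤ Y.card)
    have hG' : (T.card : ℝ) * ((Y.card + 1) * 2) ≤ Nat.card G := by
      have : T.card * ((Y.card + 1) * 2) ≤ Nat.card G := by
        refine le_trans (Nat.mul_le_mul_left _ ?_) hG
        rw [hk, hc, hYc]
        exact Nat.mul_le_mul_left _ hk2
      exact_mod_cast this
    have h6 := le_of_mul_le_mul_left hb (by linarith)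
    have h7 := mul_le_mul_of_nonneg_left hG' (by linarith : (0 : ℝ) ≤ Y.card - 2)
    have h8 : (T.card : ℝ) * ((Y.card - 2) * ((Y.card + 1) * 2)) ≤
        T.card * (Y.card * (Y.card - 1)) := by linarith
    have h9 := le_of_mul_le_mul_left h8 hn
    nlinarith

end Ec

end H26.EC
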