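import Mathlib
import Cfsg.Prelude.Def_SubgroupEmbedding
import Cfsg.Agent.Lib.ExC.Cases

/-! The induction: the normal closure of `H` meets the normaliser of `H` in `H`. -/

set_option autoImplicit false

namespace H26.EC

open Cfsg Subgroup H69 H59

universe u

section
variable {G : Type*} [Group G] {p : ℕ} {H : Subgroup G}

theorem mem_join {D : Subgroup G} (hD : H ≤ D) {x g : D} :
    x ∈ H.subgroupOf D ⊔ (H.subgroupOf D) ^ᶜ g ↔ (x : G) ∈ H ⊔ H ^ᶜ (g : G) := by
  rw [← mem_map_iff_mem D.subtype_injective, Subgroup.map_sup, map_subtype_cj,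
    map_subgroupOf_eq_of_le hD]
  rfl

theorem tr_sub {D : Subgroup G} (hD : H ≤ D) {x : D} :
    Tr p (H.subgroupOf D) x ↔ Tr p H (x : G) :=
  ⟨fun h => ⟨(orderOf_coe x).symm ▸ h.cop, (mem_join hD).1 h.mem⟩,
    fun h => ⟨orderOf_coe x ▸ h.cop, (mem_join hD).2 h.mem⟩⟩

theorem Ec.sub (e : Ec p H) {D : Subgroup G} (hD : H ≤ D) : Ec p (H.subgroupOf D) where
  hp := e.hp.comap_subtype
  ab := fun a ha => mem_centralizer_iff_commute.2 fun b hb => Subtype.ext (e.comm hb ha)
  cl := fun g x hx => by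
    have h2 := (mem_inf.1 hx).2
    rw [← subgroupOf_normalizer_eq hD] at h2
    exact e.cl g ⟨(mem_join hD).1 (mem_inf.1 hx).1, h2⟩

theorem Ec.quo (e : Ec p H) {G' : Type*} [Group G'] {f : G →* G'} (hf : Function.Surjective f)
    (hk : f.ker ≤ H) : Ec p (H.map f) where
  hp := e.hp.map f
  ab := by
    rintro _ ⟨a, ha, rfl⟩
    refine mem_centralizer_iff_commute.2 ?_
    rintro _ ⟨b, hb, rfl⟩
    rw [← map_mul, ← map_mul, e.comm hb ha]
  cl := fun g x hx => by
    obtain ⟨g, rfl⟩ := hf g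
    obtain ⟨h1, h2⟩ := mem_inf.1 hx
    rw [← map_cj, ← Subgroup.map_sup] at h1
    obtain ⟨x, h1, rfl⟩ := h1
    have h3 : x ∈ (𝐍(H.map f)).comap f := h2
    rw [comap_normalizer_eq_of_surjective _ hf, comap_map_eq_self hk] at h3
    exact mem_map_of_mem f (e.cl g ⟨h1, h3⟩)

end

theorem aux {p : ℕ} [Fact p.Prime] (hp2 : p ≠ 2) (n : ℕ) : ∀ (G : Type u) [Group G] [Finite G],
    Nat.card G = n → ∀ H : Subgroup G, Ec p H → Good H (normalClosure (H : Set G)) := by
  induction n using Nat.strong_induction_on with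
  | _ n ih =>
  intro G _ _ hn H e
  have sub : ∀ D : Subgroup G, D ≠ ⊤ → H ≤ D → ∀ a b : G, Tr p H a → Tr p H b → a ∈ D → b ∈ D →
      Tr p H (a * b) := fun D hD hH a b ha hb haD hbD => by
    have hlt : Nat.card D < n := hn ▸ lt_of_le_of_ne (Subgroup.card_le_card_group D)
      fun h => hD (eq_top_of_card_eq D h)
    have h1 := (tr_sub hH (x := ⟨a, haD⟩)).2 ha
    have h2 := (tr_sub hH (x := ⟨b, hbD⟩)).2 hb
    exact (tr_sub hH).1 ((e.sub hH).mul (ih _ hlt D rfl _ (e.sub hH)) h1 h2 h1.mem_ncl h2.mem_ncl)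
  by_cases hg : normalClosure (H : Set G) = ⊤
  swap
  · exact e.good_of_cl fun s t hs ht =>
      sub _ hg le_normalClosure s t hs ht hs.mem_ncl ht.mem_ncl
  by_cases hc : ∃ c ∈ H, c ≠ 1 ∧ centralizer ({c} : Set G) = ⊤
  · obtain ⟨c, hc, hc1, hcc⟩ := hc
    haveI : (zpowers c).Normal := normal_iff_top_le_normalizer.2
      (le_normalizer_of_le_centralizer (by rw [centralizer_zpowers, hcc]))
    have hk : (QuotientGroup.mk' (zpowers c)).ker ≤ H := by
      rw [QuotientGroup.ker_mk']; exact zpowers_le_of_mem hc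
    have hs := QuotientGroup.mk'_surjective (zpowers c)
    have hlt : Nat.card (G ⧸ zpowers c) < n := by
      rw [← hn, card_eq_card_quotient_mul_card_subgroup (zpowers c)]
      exact lt_mul_of_one_lt_right Nat.card_pos
        (one_lt_card_iff_ne_bot _ |>.2 (zpowers_ne_bot.2 hc1))
    have h1 := ih _ hlt _ rfl _ (e.quo hs hk)
    refine ⟨le_normalClosure, fun a ha => ?_⟩
    rw [← comap_map_eq_self hk]
    refine h1.inf ⟨?_, le_normalizer_map _ (mem_map_of_mem _ (mem_inf.1 ha).2)⟩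
    rw [coe_map, ← map_normalClosure _ _ hs]
    exact mem_map_of_mem _ (mem_inf.1 ha).1
  have hD : ∀ c ∈ H, c ≠ 1 → ∀ a b : G, Tr p H a → Tr p H b →
      a ∈ centralizer ({c} : Set G) → b ∈ centralizer ({c} : Set G) → Tr p H (a * b) :=
    fun c h h1 => sub _ (fun h2 => hc ⟨c, h, h1, h2⟩)
      fun a ha => mem_centralizer_singleton_iff.2 (e.comm ha h)
  by_cases hcy : IsCyclic H
  swap
  · exact e.noncyc hcy fun s u c h h1 hs hu huc => e.tri hD h h1 hs hu huc
  obtain ⟨x, hx⟩ := (Subgroup.isCyclic_iff_exists_zpowers_eq_top H).1 hcy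
  have hxH : x ∈ H := hx ▸ mem_zpowers x
  by_cases hxp : x ^ p = 1
  swap
  · exact e.bigcyc hx fun s u hs hu huc => e.tri hD (pow_mem hxH p) hxp hs hu huc
  by_cases hx1 : x = 1
  · refine ⟨le_normalClosure, inf_le_left.trans (normalClosure_le_normal ?_ |>.trans bot_le)⟩
    rw [← hx, hx1, zpowers_one_eq_bot]
  · exact e.prime hp2 (by rw [← hx, Nat.card_zpowers, orderOf_eq_prime hxp hx1]) hg

variable {G : Type*} [Group G] [Finite G] {p : ℕ} [Fact p.Prime] {H : Subgroup G}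

omit [Finite G] [Fact p.Prime] in
theorem ec_of (hHp : IsPGroup p H) (hHab : IsMulCommutative H) (hcl : IsExtremelyClosed H) :
    Ec p H := ⟨hHp, le_centralizer_iff_isMulCommutative.2 hHab, fun g => (hcl g).le⟩

theorem Ec.main (e : Ec p H) (hp2 : p ≠ 2) : Good H (normalClosure (H : Set G)) :=
  aux hp2 _ G rfl H e

omit [Finite G] [Fact p.Prime] in
theorem normal_res : (𝐑(p, normalClosure (H : Set G))).Normal :=
  normal_iff_top_le_normalizer.2 (le_normalizer_res_of_le (normal_iff_top_le_normalizer.1 inferInstance))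

theorem Ec.sup (e : Ec p H) (hp2 : p ≠ 2) : 𝐍(H) ⊔ pPrimeCore p G = ⊤ := by
  haveI := normal_res (p := p) (H := H)
  refine eq_top_iff.2 fun g _ => ?_
  obtain ⟨t, n, ht, hn, rfl⟩ := e.ex_tr g
  exact mul_mem (mem_sup_right (H1.le_pPrimeCore (e.cop (e.main hp2)) (mem_res ht.mem_ncl ht.cop)))
    (mem_sup_left hn)

end H26.EC
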